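import Groth.Agent.FormalB.GrTildeSect

/-!
# Graded modules: tails, powers of the irrelevant ideal, and eventual vanishing
-/

set_option autoImplicit false
set_option linter.unusedSectionVars false

universe u

open CategoryTheory CategoryTheory.Limits AlgebraicGeometry TopologicalSpace Opposite

namespace Groth.Agent.Ega2.H272.GrTail

open Groth.Agent.FormalB.GrTildeSect

variable {R A : Type u} [CommRing R] [CommRing A] [Algebra R A] (𝒜 : ℕ → Submodule R A) [GradedAlgebra 𝒜]

/-- If `S_+` is generated by `S_1`, a homogeneous element of degree `k` lies in `(S_+)^k`. -/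
theorem mem_irrelevant_pow
    (hgen : (HomogeneousIdeal.irrelevant 𝒜).toIdeal = Ideal.span (𝒜 1 : Set A)) (k : ℕ) :
    ∀ a ∈ 𝒜 k, a ∈ (HomogeneousIdeal.irrelevant 𝒜).toIdeal ^ k := by
  classical
  induction k with
  | zero => intro a _; simp
  | succ k ih =>
    intro a ha
    have hI : a ∈ (HomogeneousIdeal.irrelevant 𝒜).toIdeal :=
      HomogeneousIdeal.mem_irrelevant_of_mem 𝒜 (Nat.succ_pos k) ha
    have hI' := hI
    rw [hgen] at hI
    obtain ⟨n, c, g, hc⟩ := Submodule.mem_span_set'.mp hI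
    have h1 := DirectSum.decompose_of_mem_same 𝒜 ha
    rw [← hc, DirectSum.decompose_sum, DFinsupp.finsetSum_apply, AddSubmonoidClass.coe_finsetSum] at h1
    rw [← hc, ← h1]
    refine sum_mem fun i _ => ?_
    have hgi : ((g i : A)) ∈ 𝒜 1 := (g i).2
    rw [smul_eq_mul, DirectSum.coe_decompose_mul_of_right_mem_of_le 𝒜 hgi (Nat.le_add_left 1 k)]
    rw [pow_succ]
    refine Ideal.mul_mem_mul (ih _ ?_) (HomogeneousIdeal.mem_irrelevant_of_mem 𝒜 one_pos hgi)
    exact SetLike.coe_mem _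

variable {M : Type u} [AddCommGroup M] [Module R M] [Module A M] (ℳ : ℕ → Submodule R M)
variable [SetLike.GradedSMul 𝒜 ℳ] [DirectSum.Decomposition ℳ]

/-- The submodule generated by the tail `⨁_{k ≥ n} M_k`. -/
def tail (n : ℕ) : Submodule A M := Submodule.span A (⋃ k ∈ Set.Ici n, (ℳ k : Set M))

variable {ℳ} in
theorem mem_tail {n k : ℕ} (h : n ≤ k) {m : M} (hm : m ∈ ℳ k) : m ∈ tail (A := A) ℳ n :=
  Submodule.subset_span (Set.mem_biUnion (Set.mem_Ici.mpr h) hm)

/-- A finitely generated tail is generated by finitely many homogeneous elements of degree at least `n`. -/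
theorem exists_finset_homogeneous {n : ℕ} (h : (tail (A := A) ℳ n).FG) :
    ∃ s : Finset M, (∀ m ∈ s, ∃ k, n ≤ k ∧ m ∈ ℳ k) ∧ tail (A := A) ℳ n = Submodule.span A (s : Set M) := by
  obtain ⟨s, hs, he⟩ := (Submodule.fg_span_iff_fg_span_finset_subset _).mp h
  refine ⟨s, fun m hm => ?_, he⟩
  obtain ⟨k, hk, hmk⟩ := Set.mem_iUnion₂.mp (hs hm)
  exact ⟨k, hk, hmk⟩

/-- Homogeneous elements of a module generated by homogeneous elements are combinations with homogeneous
coefficients. -/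
theorem exists_homogeneous_combination (s : Finset M) (deg : M → ℕ) (hs : ∀ m ∈ s, m ∈ ℳ (deg m))
    {k : ℕ} (hk : ∀ m ∈ s, deg m ≤ k) {z : M} (hz : z ∈ ℳ k) (hzs : z ∈ Submodule.span A (s : Set M)) :
    ∃ c : M → A, (∀ m ∈ s, c m ∈ 𝒜 (k - deg m)) ∧ z = ∑ m ∈ s, c m • m := by
  classical
  obtain ⟨c, hc⟩ := Submodule.mem_span_finset.mp hzs
  obtain ⟨-, hc⟩ := hc
  refine ⟨fun m => (DirectSum.decompose 𝒜 (c m) (k - deg m) : A), fun m _ => SetLike.coe_mem _, ?_⟩
  have h1 := DirectSum.decompose_of_mem_same ℳ hz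
  rw [← hc, DirectSum.decompose_sum, DFinsupp.finsetSum_apply, AddSubmonoidClass.coe_finsetSum] at h1
  rw [← hc, ← h1]
  refine Finset.sum_congr rfl fun m hm => ?_
  have h2 := decompose_smul_of_mem 𝒜 (ℳ := ℳ) (c m) (hs m hm) (k - deg m)
  rw [Nat.sub_add_cancel (hk m hm)] at h2
  exact h2

/-- If `S_+` is finitely generated and generated by `S_1`, some tail of `M` is finitely generated, and every element of
`M` is killed by powers of the elements of degree one, then `M_k = 0` for `k` large. -/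
theorem eventually_zero
    (hfg : (HomogeneousIdeal.irrelevant 𝒜).toIdeal.FG)
    (hgen : (HomogeneousIdeal.irrelevant 𝒜).toIdeal = Ideal.span (𝒜 1 : Set A))
    {n : ℕ} (hTF : (tail (A := A) ℳ n).FG)
    (hnil : ∀ (z : M), ∀ f ∈ 𝒜 1, ∃ k : ℕ, f ^ k • z = 0) :
    ∃ n : ℕ, ∀ k : ℕ, n ≤ k → ℳ k = ⊥ := by
  classical
  obtain ⟨s, hs, he⟩ := exists_finset_homogeneous ℳ hTF
  have hrad : (HomogeneousIdeal.irrelevant 𝒜).toIdeal ≤
      (Submodule.span A (s : Set M)).annihilator.radical := by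
    rw [hgen, Ideal.span_le]
    intro f hf
    choose N hN using fun z => hnil z f hf
    refine ⟨s.sup N, (Submodule.mem_annihilator_span _ _).mpr ?_⟩
    rintro ⟨m, hm⟩
    obtain ⟨c, hc⟩ := Nat.exists_eq_add_of_le' (Finset.le_sup (f := N) hm)
    rw [hc, pow_add, mul_smul, hN, smul_zero]
  obtain ⟨K, hK⟩ := Ideal.exists_pow_le_of_le_radical_of_fg hrad hfg
  let deg : M → ℕ := fun m => if h : m ∈ s then (hs m h).choose else 0
  have hdeg : ∀ m ∈ s, m ∈ ℳ (deg m) := by
    intro m hm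
    simp only [deg, dif_pos hm]
    exact (hs m hm).choose_spec.2
  refine ⟨max n (s.sup deg + K), fun k hk => ?_⟩
  rw [eq_bot_iff]
  intro z hz
  rw [Submodule.mem_bot]
  have hle : ∀ m ∈ s, deg m + K ≤ k := fun m hm =>
    (Nat.add_le_add_right (Finset.le_sup (f := deg) hm) K).trans ((le_max_right _ _).trans hk)
  have hzs : z ∈ Submodule.span A (s : Set M) := he ▸ mem_tail ((le_max_left _ _).trans hk) hz
  obtain ⟨c, hc, hsum⟩ := exists_homogeneous_combination 𝒜 ℳ s deg hdeg
    (fun m hm => (Nat.le_add_right _ _).trans (hle m hm)) hz hzs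
  rw [hsum]
  refine Finset.sum_eq_zero fun m hm => ?_
  have h1 := mem_irrelevant_pow 𝒜 hgen _ _ (hc m hm)
  have h2 : c m ∈ (HomogeneousIdeal.irrelevant 𝒜).toIdeal ^ K :=
    Ideal.pow_le_pow_right (by have := hle m hm; omega) h1
  exact (Submodule.mem_annihilator.mp (hK h2)) m (Submodule.subset_span hm)

/-- If `M_k = 0` for `k` large then every element of `M` is killed by powers of homogeneous elements of positive
degree. -/
theorem nilpotent_of_eventually_zero {n : ℕ} (h : ∀ k : ℕ, n ≤ k → ℳ k = ⊥) (z : M) {d : ℕ} (hd : 0 < d) {f : A}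
    (hf : f ∈ 𝒜 d) : f ^ n • z = 0 := by
  classical
  rw [← DirectSum.sum_support_decompose ℳ z, Finset.smul_sum]
  refine Finset.sum_eq_zero fun i _ => ?_
  have h1 : f ^ n • (DirectSum.decompose ℳ z i : M) ∈ ℳ (n • d + i) :=
    smul_mem_add 𝒜 (SetLike.pow_mem_graded n hf) (SetLike.coe_mem _)
  rw [h _ (by have := Nat.le_mul_of_pos_right n hd; rw [smul_eq_mul]; omega)] at h1
  exact h1

end Groth.Agent.Ega2.H272.GrTail
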